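import Cfsg.Agent.H698.U33.RG
import Cfsg.Agent.H524.U33.Glue

/-!
# S5525, type I: the closure certificate row by row, the conclusion in the Baby Monster (helper698)
-/

set_option autoImplicit false

namespace Cfsg.Agent.H698.U33

open Cfsg.Agent.H763.U33 (Frame)
open Cfsg.Agent.H763.U33.Dat (tabs Ls Sx)

/-- several rows of the closure certificate -/
noncomputable def closeAll (m : ℕ) (ps base : List ℕ) (rg : List (List ℕ)) (om : List ℕ) (xs : List (List ℕ))
    (orb : List (ℕ × List ℕ)) : List (List ℕ) → List (List (ℕ × Bool × List ℕ)) → Bool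
  | [], _ => true
  | x :: l, cs :: css => closeb m ps base rg om xs x orb cs && closeAll m ps base rg om xs orb l css
  | _ :: _, [] => false

theorem closeAll_spec {m : ℕ} {ps base : List ℕ} {rg : List (List ℕ)} {om : List ℕ} {xs : List (List ℕ)}
    {orb : List (ℕ × List ℕ)} : ∀ {l : List (List ℕ)} {css : List (List (ℕ × Bool × List ℕ))},
      closeAll m ps base rg om xs orb l css = true → ∀ x ∈ l, ∃ cs, closeb m ps base rg om xs x orb cs = true := by
  intro l
  induction l with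
  | nil => intro _ _ x hx; exact absurd hx List.not_mem_nil
  | cons y l ih =>
    intro css h x hx
    cases css with
    | nil => exact absurd h (by simp [closeAll])
    | cons cs css =>
      rw [closeAll, Bool.and_eq_true] at h
      rcases List.mem_cons.1 hx with rfl | hx
      · exact ⟨cs, h.1⟩
      · exact ih h.2 x hx

section

open Cfsg.Agent.BabyM.Conc Cfsg.Agent.H819.U33

/-- words in the letters are equal in `G` -/
theorem wd_eq_of {v : List ℕ} {w : List Ltr} (h : BM.StageW.chk (flat 18 L18 v) w = true) : wd 18 S18 v = g w := by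
  rw [wd_flat]
  exact eq_of h

/-- **Type I in the Baby Monster.** -/
theorem typeI_of {t : Fin 3510 → G} (ht : Function.Injective t)
    (hact : ∀ k < 3, ∀ i : Fin 3510, ∃ j : Fin 3510, (j : ℕ) = H123.Cls.lk 12 (H123.Cls.nth tabs k) i ∧
      (S3 k)⁻¹ * t i * S3 k = t j)
    {om : List ℕ} {i0 : ℕ} {orb : List (ℕ × List ℕ)} {xs : List (List ℕ)} {gw : List (List ℕ)}
    (hom : Valid 18 om) (hi0 : i0 < 3510) (homt : wd 18 S18 om = tn t i0) (horb : orbb ps18 rgR i0 orb = true)
    (hxv : ∀ x ∈ xs, Valid 18 x) (hcl : ∀ x ∈ xs, ∃ cs, closeb 18 ps18 base7 rgR om xs x orb cs = true)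
    (hg : genb 18 ps18 base7 rgR om gw = true) {x0 : List ℕ} (hx0 : x0 ∈ xs) {e0 : Bool} {l0 : List ℕ} {w27 : List Ltr}
    (hx : BM.StageW.chk (flat 18 L18 (winv 18 (rword rgR l0) ++ (sgn 18 e0 x0 ++ rword rgR l0))) w27 = true)
    (hxs : ∀ x ∈ xs, (∃ c b, cenb 18 3510 ps18 base7 rgR x c b = true) ∨
      ((∃ r, invb 18 ps18 base7 rgR x r = true) ∧ ¬ Trip (g wu) (g wf) (g (flat 18 L18 x))) ∨
      (¬ Trip (g wu) (g wf) (g (flat 18 L18 x)) ∧ ¬ Trip (g wu) (g wf) (g (flat 18 L18 x))⁻¹)) :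
    ∀ h ∈ XX, Trip (g wu) (g wf) (h⁻¹ * g w27 * h) → H524.U33.Cen (g wu) (g wf) (h⁻¹ * g w27 * h) := by
  have hF := frame ht hact
  have hA := act18 hF
  have hc : Closed 18 3510 S18 (tn t) ps18 base7 rgR om i0 orb xs :=
    ⟨eq18 hF, rgR_valid, hom, homt, hi0, horb, hxv, hcl⟩
  refine typeI hA hc (HH18 hF) hg hx0 (e0 := e0) (l0 := l0) ?_ hu hf fun x hxx => ?_
  · rw [← wd_eq_of hx, wd_append, wd_append, wd_winv 18 S18 (rword_valid rgR_valid l0), mul_assoc]
  · rcases hxs x hxx with ⟨c, b, h⟩ | ⟨⟨r, h1⟩, h2⟩ | h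
    · exact Or.inl (cen_of hA (tn_inj ht) (eq18 hF) rgR_valid (hxv x hxx) h)
    · right
      have h3 : ¬ Trip (g wu) (g wf) (wd 18 S18 x) := by rwa [wd_flat]
      exact ⟨h3, not_trip_inv (eq18 hF) rgR_valid (hxv x hxx) h1 hu hf h3⟩
    · right
      rw [wd_flat]
      exact h

end

end Cfsg.Agent.H698.U33
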