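import Cfsg.Agent.H698.U33.Cert
import Cfsg.Agent.H698.U33.Tab18

/-!
# S5525: the generators of `R` in the 18 letters, the base (helper698)
-/

set_option autoImplicit false

namespace Cfsg.Agent.H698.U33

/-- the base -/
def base7 : List ℕ := [18, 14, 8, 5, 2, 1, 0]

/-- the generators of `R` -/
def rgR : List (List ℕ) := [[0], [1], [2], [18], [19], [20]]

theorem rgR_valid : ∀ w ∈ rgR, Valid 18 w := by
  have h : (rgR.all fun w => validb 18 w) = true := by decide +kernel
  exact fun w hw => valid_of (List.all_eq_true.1 h w hw)

end Cfsg.Agent.H698.U33
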