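import Cfsg.Agent.H698.U33.Sub
import Cfsg.Agent.H698.U33.Rg
import Cfsg.Agent.H763.U33.FrameX

/-!
# S5525: from the frame of helper763 (letters `τ`, `w4`, `w5`) to `Act` (helper698)
-/

set_option autoImplicit false
set_option maxRecDepth 100000

namespace Cfsg.Agent.H698.U33

open Cfsg.Agent.H763.U33 (Frame wp Frame.gen allL)
open Cfsg.Agent.H763.U33.Dat (tabs Ls Sx pts_Ls prd_Ls)

theorem nth_eq (l : List ℕ) (k : ℕ) : H123.Cls.nth l k = l.getD k 0 := by
  induction l generalizing k with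
  | nil => rfl
  | cons x l ih =>
    cases k with
    | zero => rfl
    | succ k => exact (ih k).trans (by simp)

theorem lk_eq' (P i : ℕ) : H123.Cls.lk 12 P i = lk P i := rfl

theorem evr_eq (w : List ℕ) (i : ℕ) : H763.U33.evr 12 tabs w i = act tabs w i := by
  induction w generalizing i with
  | nil => rfl
  | cons k w ih => rw [H763.U33.evr_cons, act_cons, ih, nth_eq, lk_eq']

section

variable {G : Type*} [Group G] {s : ℕ → G} {t : Fin 3510 → G} {X : Subgroup G}

theorem wp_eq (s : ℕ → G) (w : List ℕ) : wp (Sx s) w = wd 3 s w := by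
  induction w with
  | nil => rfl
  | cons k w ih => rw [H763.U33.wp_cons, wd, ih]; rfl

/-- the family on `ℕ` -/
noncomputable def tn (t : Fin 3510 → G) (i : ℕ) : G := if h : i < 3510 then t ⟨i, h⟩ else 1

theorem tn_of (t : Fin 3510 → G) {i : ℕ} (h : i < 3510) : tn t i = t ⟨i, h⟩ := dif_pos h

theorem tn_inj {t : Fin 3510 → G} (ht : Function.Injective t) : ∀ i < 3510, ∀ j < 3510, tn t i = tn t j → i = j := by
  intro i hi j hj h
  rw [tn_of t hi, tn_of t hj] at h
  exact congrArg Fin.val (ht h)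

theorem act_of (h : Frame 3510 12 tabs Ls (Sx s) t X) : Act 3 3510 s (tn t) tabs := by
  have hl : tabs.length = 6 := rfl
  have h1 : ∀ k < 6, ∀ i (hi : i < 3510), lk (tabs.getD k 0) i < 3510 ∧
      (Sx s k)⁻¹ * tn t i * Sx s k = tn t (lk (tabs.getD k 0) i) := by
    intro k hk i hi
    obtain ⟨j, hj, e⟩ := h.act k (by rw [hl]; exact hk) ⟨i, hi⟩
    have h2 : (j : ℕ) = lk (tabs.getD k 0) i := by rw [hj, nth_eq, lk_eq']
    rw [← h2, tn_of t hi, tn_of t j.2]
    exact ⟨j.2, e⟩
  refine ⟨fun k hk i hi => (h1 k (by omega) i hi).1, fun k hk i hi => ?_, fun k hk i hi => ?_⟩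
  · have h2 := h1 k (by omega) i hi
    have h3 : ivl 3 k < 6 := by
      rcases Nat.lt_or_ge k 3 with h | h
      · rw [ivl_lt h]; omega
      · rw [ivl_ge h]; omega
    have h4 := h1 _ h3 _ h2.1
    have h5 : Sx s (ivl 3 k) = (Sx s k)⁻¹ := ext_ivl 3 s (by omega)
    rw [h5, inv_inv, ← h2.2] at h4
    refine (tn_inj h.inj _ hi _ h4.1 ?_).symm
    rw [← h4.2]
    group
  · exact (h1 k (by omega) i hi).2

theorem HH_of (h : Frame 3510 12 tabs Ls (Sx s) t X) : HH 3 s = X := by
  rw [← h.closure_eq]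
  have hl : tabs.length = 6 := rfl
  apply le_antisymm
  · rw [HH, Subgroup.closure_le]
    rintro _ ⟨k, hk, rfl⟩
    exact Subgroup.subset_closure ⟨k, by rw [hl]; omega, (if_pos hk : Sx s k = s k).symm⟩
  · unfold Frame.gen
    rw [Subgroup.closure_le]
    rintro _ ⟨k, hk, rfl⟩
    rw [hl] at hk
    rcases Nat.lt_or_ge k 3 with h | h
    · have e : Sx s k = s k := if_pos h
      rw [e]
      exact Subgroup.subset_closure ⟨k, h, rfl⟩
    · have e : Sx s k = (s (k - 3))⁻¹ := if_neg (by omega)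
      rw [e]
      exact Subgroup.inv_mem _ (Subgroup.subset_closure ⟨k - 3, by omega, rfl⟩)

theorem allL_of {l : List ℕ} {f : ℕ → Bool} (h : ∀ x ∈ l, f x = true) : allL l f = true := by
  induction l with
  | nil => rfl
  | cons x l ih =>
    have h1 : allL (x :: l) f = H123.Cls.band (f x) (allL l f) := rfl
    rw [h1, h x List.mem_cons_self, ih fun y hy => h y (List.mem_cons_of_mem x hy)]
    rfl

theorem eq_of_eqb (h : Frame 3510 12 tabs Ls (Sx s) t X) :
    ∀ v w, Valid 3 v → Valid 3 w → eqb tabs base7 v w = true → wd 3 s v = wd 3 s w := by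
  intro v w hv hw hvw
  rw [← wp_eq, ← wp_eq]
  refine h.eq_of ?_
  have hl : tabs.length = 6 := rfl
  have hc : ∀ v : List ℕ, Valid 3 v → H123.Cls.chkL tabs.length v = true := by
    intro v hv
    rw [hl]
    induction v with
    | nil => rfl
    | cons k v ih =>
      have h1 : H123.Cls.chkL 6 (k :: v) = H123.Cls.band (Nat.blt k 6) (H123.Cls.chkL 6 v) := rfl
      rw [h1, ih fun j hj => hv j (List.mem_cons_of_mem k hj), blt_iff.2 (hv k List.mem_cons_self)]
      rfl
  unfold H763.U33.eqB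
  rw [hc v hv, hc w hw]
  have h2 : allL (H763.U33.pts [] Ls) (fun b => Nat.beq (H763.U33.evr 12 tabs v b) (H763.U33.evr 12 tabs w b)) = true := by
    rw [pts_Ls]
    refine allL_of fun b hb => ?_
    rw [evr_eq, evr_eq]
    exact List.all_eq_true.1 hvw b hb
  rw [h2]
  rfl

end

end Cfsg.Agent.H698.U33
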