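import Cfsg.Agent.H698.U33.Fin
import Cfsg.Agent.H924.U33.Om
import Cfsg.Agent.H405.U33.All
import Cfsg.Agent.H863.U33.Link

/-!
# S5525: box I (helper698)

The table of helper924, the refutations of helper405 / helper919, the closure certificate.
-/

set_option autoImplicit false

namespace Cfsg.Agent.H698.U33

open Cfsg.Agent.H819.U33 Cfsg.Agent.H524.U33

/-- **Type I.** -/
theorem boxI : ∀ h ∈ XX, Trip (g wu) (g wf) (h⁻¹ * g H863.U33.wx27 * h) →
    Cen (g wu) (g wf) (h⁻¹ * g H863.U33.wx27 * h) :=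
  hI_of H924.U33.Fin.inj H924.U33.Fin.hact H924.U33.Om.homt H405.U33.ref_all

end Cfsg.Agent.H698.U33
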