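import Cfsg.Agent.H698.U33.Frame

/-!
# S5525, box H3/H7: injectivity, the closure certificate (helper698)

* `Act.inj_of` : `t` is injective: transitivity, suborbits of the stabiliser of `b`, `t b ≠ t a` for representatives `a`;
* `Closed.main` : the set `{r⁻¹ x_j^(±1) r : r ∈ R}` is invariant under the group generated by `R` and `ω = t i₀`.
-/

set_option autoImplicit false
set_option linter.unusedSectionVars false

namespace Cfsg.Agent.H698.U33

open Subgroup

section group

variable {G : Type*} [Group G] {m n : ℕ} {S t : ℕ → G} {ps : List ℕ}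

/-- every point is in the tree `T` -/
noncomputable def coverb (n : ℕ) (T : Tree) : Bool :=
  (List.range n).all fun j => Nat.blt (lk T.pos j) T.k && Nat.beq (lk T.pt (lk T.pos j)) j

/-- every point except `b` is in one of the trees -/
noncomputable def coverb' (n b : ℕ) (l : List (ℕ × Tree)) : Bool :=
  (List.range n).all fun j => Nat.beq j b || l.any fun x => Nat.blt (lk x.2.pos j) x.2.k && Nat.beq (lk x.2.pt (lk x.2.pos j)) j

namespace Act

variable (h : Act m n S t ps)

include h

/-- a word carrying `b` to `j` -/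
theorem reach_all {prev : List ℕ} (hprev : ∀ p ∈ prev, p < n) {gens : List (List ℕ)}
    (hg : gensb m ps prev gens = true) {b : ℕ} {T : Tree} (hT : T.ok ps gens b = true) {j : ℕ}
    (hj : (Nat.blt (lk T.pos j) T.k && Nat.beq (lk T.pt (lk T.pos j)) j) = true) :
    ∃ w, Valid m w ∧ (∀ p ∈ prev, act ps w p = p) ∧ act ps w b = j := by
  rw [Bool.and_eq_true] at hj
  obtain ⟨-, w, hw1, -, hw3, hw4⟩ := h.reach hprev hg hT _ (blt_iff.1 hj.1)
  exact ⟨w, hw1, hw3, by rw [hw4]; exact Nat.eq_of_beq_eq_true hj.2⟩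

/-- **Injectivity of `t`.** `gens1` letters or words, `T1` a tree on all points with root `b`; `gens2` words fixing `b`,
`l` the trees with roots `x.1` covering the other points. -/
theorem inj_of {b : ℕ} (hb : b < n) {gens1 : List (List ℕ)} (hg1 : gensb m ps [] gens1 = true) {T1 : Tree}
    (hT1 : T1.ok ps gens1 b = true) (hc1 : coverb n T1 = true) {gens2 : List (List ℕ)}
    (hg2 : gensb m ps [b] gens2 = true) {l : List (ℕ × Tree)} (hl : (l.all fun x => x.2.ok ps gens2 x.1) = true)
    (hln : ∀ x ∈ l, x.1 < n) (hc2 : coverb' n b l = true) (hne : ∀ x ∈ l, t b ≠ t x.1) :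
    ∀ i < n, ∀ j < n, t i = t j → i = j := by
  intro i hi j hj hij
  have hb1 : ∀ p ∈ [b], p < n := fun p hp => by rw [List.mem_singleton.1 hp]; exact hb
  obtain ⟨w, hw1, -, hw2⟩ := h.reach_all (fun _ hp => absurd hp List.not_mem_nil) hg1 hT1
    (List.all_eq_true.1 hc1 i (List.mem_range.2 hi))
  -- `j'` the preimage of `j`
  have hj' := (h.spec hw1.winv hj).1
  have h1 := (h.spec hw1 hb).2
  have h2 := (h.spec hw1 hj').2
  rw [hw2, hij] at h1
  rw [h.act_winv' hw1 hj] at h2
  have h3 : t b = t (act ps (winv m w) j) := by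
    have h4 : wd m S w * ((wd m S w)⁻¹ * t b * wd m S w) * (wd m S w)⁻¹ = t b := by group
    have h5 : wd m S w * ((wd m S w)⁻¹ * t (act ps (winv m w) j) * wd m S w) * (wd m S w)⁻¹ =
        t (act ps (winv m w) j) := by group
    rw [← h4, ← h5, h1, h2]
  have h4 := List.all_eq_true.1 hc2 _ (List.mem_range.2 hj')
  rw [Bool.or_eq_true] at h4
  rcases h4 with h4 | h4
  · have h5 : act ps (winv m w) j = b := Nat.eq_of_beq_eq_true h4
    have h6 := h.act_winv' hw1 hj
    rw [h5, hw2] at h6
    exact h6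
  · exfalso
    obtain ⟨x, hx, hx2⟩ := List.any_eq_true.1 h4
    obtain ⟨v, hv1, hv2, hv3⟩ := h.reach_all hb1 hg2 (List.all_eq_true.1 hl x hx) hx2
    apply hne x hx
    have h6 := (h.spec hv1 (hln x hx)).2
    rw [hv3, ← h3] at h6
    have h7 := (h.spec hv1 hb).2
    rw [hv2 b (List.mem_singleton_self b)] at h7
    have h8 : wd m S v * ((wd m S v)⁻¹ * t b * wd m S v) * (wd m S v)⁻¹ = t b := by group
    have h9 : wd m S v * ((wd m S v)⁻¹ * t x.1 * wd m S v) * (wd m S v)⁻¹ = t x.1 := by group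
    rw [← h8, ← h9, h6, h7]

end Act

/-! ### the closure certificate -/

/-- the word of a word in the words `rg` -/
def rword (rg : List (List ℕ)) (l : List ℕ) : List ℕ := l.flatMap fun i => rg.getD i []

/-- the subgroup generated by the words `rg` -/
def RR (m : ℕ) (S : ℕ → G) (rg : List (List ℕ)) : Subgroup G := closure {x | ∃ w ∈ rg, x = wd m S w}

theorem getD_mem_or (rg : List (List ℕ)) (i : ℕ) : rg.getD i [] ∈ rg ∨ rg.getD i [] = [] := by
  rcases Nat.lt_or_ge i rg.length with ha | ha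
  · left
    rw [List.getD_eq_getElem _ _ ha]
    exact List.getElem_mem ha
  · right
    exact List.getD_eq_default _ _ ha

theorem rword_valid {rg : List (List ℕ)} (hrg : ∀ w ∈ rg, Valid m w) (l : List ℕ) : Valid m (rword rg l) := by
  intro k hk
  obtain ⟨i, -, hi⟩ := List.mem_flatMap.1 hk
  rcases getD_mem_or rg i with h | h
  · exact hrg _ h k hi
  · rw [h] at hi
    exact absurd hi List.not_mem_nil

theorem rword_mem (rg : List (List ℕ)) (l : List ℕ) : wd m S (rword rg l) ∈ RR m S rg := by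
  induction l with
  | nil => exact Subgroup.one_mem _
  | cons i l ih =>
    have h1 : rword rg (i :: l) = rg.getD i [] ++ rword rg l := rfl
    rw [h1, wd_append]
    refine Subgroup.mul_mem _ ?_ ih
    rcases getD_mem_or rg i with h | h
    · exact Subgroup.subset_closure (show wd m S (rg.getD i []) ∈ {x | ∃ w ∈ rg, x = wd m S w} from ⟨_, h, rfl⟩)
    · rw [h]
      exact Subgroup.one_mem _

/-- `w` or its inverse -/
def sgn (m : ℕ) (e : Bool) (w : List ℕ) : List ℕ := bif e then w else winv m w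

/-- the word of `t p`, `p = act (rword ρ) i₀` -/
def omk (m : ℕ) (rg : List (List ℕ)) (om ρ : List ℕ) : List ℕ := winv m (rword rg ρ) ++ (om ++ rword rg ρ)

/-- the orbit of `i₀` under `R`: points with words -/
noncomputable def orbb (ps : List ℕ) (rg : List (List ℕ)) (i0 : ℕ) (orb : List (ℕ × List ℕ)) : Bool :=
  (orb.any fun x => Nat.beq x.1 i0) && orb.all fun x => Nat.beq (act ps (rword rg x.2) i0) x.1 &&
    rg.all fun w => orb.any fun y => Nat.beq (act ps w x.1) y.1

/-- one entry of the closure certificate -/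
noncomputable def closeb1 (m : ℕ) (ps base : List ℕ) (rg : List (List ℕ)) (xs : List (List ℕ)) (x Ω : List ℕ)
    (c : ℕ × Bool × List ℕ) : Bool :=
  Nat.blt c.1 xs.length && eqb ps base (winv m Ω ++ (x ++ Ω))
    (winv m (rword rg c.2.2) ++ (sgn m c.2.1 (xs.getD c.1 []) ++ rword rg c.2.2))

/-- the entries of `x` -/
noncomputable def closeb (m : ℕ) (ps base : List ℕ) (rg : List (List ℕ)) (om : List ℕ) (xs : List (List ℕ)) (x : List ℕ) :
    List (ℕ × List ℕ) → List (ℕ × Bool × List ℕ) → Bool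
  | [], _ => true
  | o :: orb, c :: cs => closeb1 m ps base rg xs x (omk m rg om o.2) c && closeb m ps base rg om xs x orb cs
  | _ :: _, [] => false

theorem closeb_spec {base : List ℕ} {rg : List (List ℕ)} {om : List ℕ} {xs : List (List ℕ)} {x : List ℕ} :
    ∀ {orb : List (ℕ × List ℕ)} {cs : List (ℕ × Bool × List ℕ)}, closeb m ps base rg om xs x orb cs = true →
      ∀ o ∈ orb, ∃ c, closeb1 m ps base rg xs x (omk m rg om o.2) c = true := by
  intro orb
  induction orb with
  | nil => intro _ _ o ho; exact absurd ho List.not_mem_nil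
  | cons o' orb ih =>
    intro cs hcs o ho
    cases cs with
    | nil => exact absurd hcs (by simp [closeb])
    | cons c cs =>
      rw [closeb, Bool.and_eq_true] at hcs
      rcases List.mem_cons.1 ho with rfl | ho
      · exact ⟨c, hcs.1⟩
      · exact ih hcs.2 o ho

/-- **The set `𝒮`.** -/
def SS (m : ℕ) (S : ℕ → G) (rg xs : List (List ℕ)) : Set G :=
  {y | ∃ r ∈ RR m S rg, ∃ x ∈ xs, ∃ e : Bool, y = r⁻¹ * wd m S (sgn m e x) * r}

theorem sgn_valid {w : List ℕ} (hw : Valid m w) (e : Bool) : Valid m (sgn m e w) := by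
  cases e
  · exact hw.winv
  · exact hw

theorem wd_sgn {w : List ℕ} (hw : Valid m w) (e : Bool) : wd m S (sgn m e w) = bif e then wd m S w else (wd m S w)⁻¹ := by
  cases e
  · exact wd_winv m S hw
  · rfl

/-- a property of the generators closed under products holds in the closure (finite group) -/
theorem closure_ind [Finite G] {A : Set G} {P : G → Prop} (h1 : P 1) (hA : ∀ a ∈ A, P a)
    (hm : ∀ a b, P a → P b → P (a * b)) : ∀ x ∈ closure A, P x := by
  intro x hx
  refine Subgroup.closure_induction (p := fun x _ => P x) hA h1 (fun a b _ _ => hm a b) (fun a _ ha => ?_) hx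
  have h2 : ∀ k : ℕ, P (a ^ k) := by
    intro k
    induction k with
    | zero => rw [pow_zero]; exact h1
    | succ k ih => rw [pow_succ]; exact hm _ _ ih ha
  have h3 : a⁻¹ = a ^ (orderOf a - 1) := by
    rw [inv_eq_iff_mul_eq_one, ← pow_succ', Nat.sub_add_cancel (orderOf_pos a), pow_orderOf_eq_one]
  rw [h3]
  exact h2 _

/-- the hypotheses of the closure certificate -/
structure Closed (m n : ℕ) (S t : ℕ → G) (ps base : List ℕ) (rg : List (List ℕ)) (om : List ℕ) (i0 : ℕ)
    (orb : List (ℕ × List ℕ)) (xs : List (List ℕ)) : Prop where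
  eq : ∀ v w, Valid m v → Valid m w → eqb ps base v w = true → wd m S v = wd m S w
  rgv : ∀ w ∈ rg, Valid m w
  omv : Valid m om
  omt : wd m S om = t i0
  i0n : i0 < n
  orbb : orbb ps rg i0 orb = true
  xsv : ∀ x ∈ xs, Valid m x
  cl : ∀ x ∈ xs, ∃ cs, closeb m ps base rg om xs x orb cs = true

namespace Closed

variable {base : List ℕ} {rg : List (List ℕ)} {om : List ℕ} {i0 : ℕ} {orb : List (ℕ × List ℕ)} {xs : List (List ℕ)}
  (h : Act m n S t ps) (c : Closed m n S t ps base rg om i0 orb xs)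

include h c

theorem wd_omk {o : ℕ × List ℕ} (ho : o ∈ orb) : o.1 < n ∧ wd m S (omk m rg om o.2) = t o.1 := by
  have h1 := c.orbb
  rw [U33.orbb, Bool.and_eq_true] at h1
  have h2 := List.all_eq_true.1 h1.2 o ho
  rw [Bool.and_eq_true] at h2
  have h3 : act ps (rword rg o.2) i0 = o.1 := Nat.eq_of_beq_eq_true h2.1
  have hv := rword_valid c.rgv o.2
  obtain ⟨h4, h5⟩ := h.spec hv c.i0n
  rw [h3] at h4 h5
  refine ⟨h4, ?_⟩
  rw [omk, wd_append, wd_append, wd_winv m S hv, c.omt, ← h5]
  group

theorem conj_om [Finite G] {r : G} (hr : r ∈ RR m S rg) :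
    ∀ o ∈ orb, ∃ o' ∈ orb, r⁻¹ * t o.1 * r = t o'.1 := by
  refine closure_ind (P := fun r => ∀ o ∈ orb, ∃ o' ∈ orb, r⁻¹ * t o.1 * r = t o'.1) ?_ ?_ ?_ r hr
  · intro o ho
    exact ⟨o, ho, by group⟩
  · rintro _ ⟨w, hw, rfl⟩ o ho
    have h1 := c.orbb
    rw [U33.orbb, Bool.and_eq_true] at h1
    have h2 := List.all_eq_true.1 h1.2 o ho
    rw [Bool.and_eq_true] at h2
    obtain ⟨o', ho', h3⟩ := List.any_eq_true.1 (List.all_eq_true.1 h2.2 w hw)
    refine ⟨o', ho', ?_⟩
    rw [(h.spec (c.rgv w hw) (c.wd_omk h ho).1).2, Nat.eq_of_beq_eq_true h3]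
  · intro a b ha hb o ho
    obtain ⟨o1, h1, h2⟩ := ha o ho
    obtain ⟨o2, h3, h4⟩ := hb o1 h1
    refine ⟨o2, h3, ?_⟩
    rw [← h4, ← h2]
    group

/-- **`𝒮` is invariant under `R` and `ω`.** -/
theorem main [Finite G] {g : G} (hg : g ∈ closure ({x | ∃ w ∈ rg, x = wd m S w} ∪ {wd m S om})) :
    ∀ y ∈ SS m S rg xs, g⁻¹ * y * g ∈ SS m S rg xs := by
  refine closure_ind (P := fun g => ∀ y ∈ SS m S rg xs, g⁻¹ * y * g ∈ SS m S rg xs) ?_ ?_ ?_ g hg
  · intro y hy
    rwa [inv_one, one_mul, mul_one]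
  · rintro a (⟨w, hw, rfl⟩ | ha)
    · rintro _ ⟨r, hr, x, hx, e, rfl⟩
      refine ⟨r * wd m S w, Subgroup.mul_mem _ hr (Subgroup.subset_closure
        (show wd m S w ∈ {x | ∃ w ∈ rg, x = wd m S w} from ⟨w, hw, rfl⟩)), x, hx, e, ?_⟩
      group
    · rw [Set.mem_singleton_iff] at ha
      subst ha
      rintro _ ⟨r, hr, x, hx, e, rfl⟩
      -- `r ω r⁻¹ = t o.1`
      have h0 : ∃ o ∈ orb, r * t i0 * r⁻¹ = t o.1 := by
        have h1 := c.orbb
        rw [U33.orbb, Bool.and_eq_true] at h1
        obtain ⟨o, ho, h2⟩ := List.any_eq_true.1 h1.1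
        have h3 : o.1 = i0 := Nat.eq_of_beq_eq_true h2
        obtain ⟨o', ho', h4⟩ := c.conj_om h (Subgroup.inv_mem _ hr) o ho
        rw [inv_inv, h3] at h4
        exact ⟨o', ho', h4⟩
      obtain ⟨o, ho, h1⟩ := h0
      obtain ⟨-, h2⟩ := c.wd_omk h ho
      obtain ⟨cs, hcs⟩ := c.cl x hx
      obtain ⟨⟨j, e', l⟩, h3⟩ := closeb_spec hcs o ho
      rw [closeb1, Bool.and_eq_true] at h3
      have h4 : xs.getD j [] ∈ xs := by
        rw [List.getD_eq_getElem _ _ (blt_iff.1 h3.1)]
        exact List.getElem_mem _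
      have hvl := rword_valid c.rgv l
      have hvo : Valid m (omk m rg om o.2) := (rword_valid c.rgv o.2).winv.append (c.omv.append (rword_valid c.rgv o.2))
      have h5 := c.eq _ _ (hvo.winv.append ((c.xsv x hx).append hvo))
        (hvl.winv.append ((sgn_valid (c.xsv _ h4) e').append hvl)) h3.2
      rw [wd_append, wd_append, wd_winv m S hvo, h2, wd_append, wd_append, wd_winv m S hvl, wd_sgn (c.xsv _ h4)] at h5
      -- conclusion
      refine ⟨wd m S (rword rg l) * r, Subgroup.mul_mem _ (rword_mem rg l) hr, xs.getD j [], h4,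
        (bif e then e' else !e'), ?_⟩
      rw [c.omt, wd_sgn (c.xsv x hx), wd_sgn (c.xsv _ h4)]
      have h6 : t i0 = r⁻¹ * t o.1 * r := by rw [← h1]; group
      rw [h6]
      have key : (t o.1)⁻¹ * (bif e then wd m S x else (wd m S x)⁻¹) * t o.1 =
          (wd m S (rword rg l))⁻¹ * (bif (bif e then e' else !e') then wd m S (xs.getD j []) else (wd m S (xs.getD j []))⁻¹) *
            wd m S (rword rg l) := by
        cases e
        · rw [cond_false, cond_false]
          have h7 : (t o.1)⁻¹ * (wd m S x)⁻¹ * t o.1 = ((t o.1)⁻¹ * (wd m S x * t o.1))⁻¹ := by group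
          rw [h7, h5]
          cases e'
          · rw [cond_false, Bool.not_false, cond_true]
            group
          · rw [cond_true, Bool.not_true, cond_false]
            group
        · rw [cond_true, cond_true, mul_assoc, h5, mul_assoc]
      calc (r⁻¹ * t o.1 * r)⁻¹ * (r⁻¹ * (bif e then wd m S x else (wd m S x)⁻¹) * r) * (r⁻¹ * t o.1 * r)
          = r⁻¹ * ((t o.1)⁻¹ * (bif e then wd m S x else (wd m S x)⁻¹) * t o.1) * r := by group
        _ = _ := by
          rw [key]
          group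
  · intro a b ha hb y hy
    have h1 := hb _ (ha y hy)
    have h2 : (a * b)⁻¹ * y * (a * b) = b⁻¹ * (a⁻¹ * y * a) * b := by group
    rwa [h2]

end Closed

/-- generation: every letter is a word in `ω` (0) and the words `rg` (`i + 1`) -/
noncomputable def genb (m : ℕ) (ps base : List ℕ) (rg : List (List ℕ)) (om : List ℕ) (gw : List (List ℕ)) : Bool :=
  (List.range m).all fun k => eqb ps base [k] (rword (om :: rg) (gw.getD k []))

theorem gen_of {base : List ℕ} {rg : List (List ℕ)} {om : List ℕ} {gw : List (List ℕ)}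
    (heq : ∀ v w, Valid m v → Valid m w → eqb ps base v w = true → wd m S v = wd m S w) (hrg : ∀ w ∈ rg, Valid m w)
    (hom : Valid m om) (hg : genb m ps base rg om gw = true) :
    HH m S ≤ closure ({x | ∃ w ∈ rg, x = wd m S w} ∪ {wd m S om}) := by
  rw [HH, closure_le]
  rintro _ ⟨k, hk, rfl⟩
  have h1 := List.all_eq_true.1 hg k (List.mem_range.2 hk)
  have hv : ∀ w ∈ om :: rg, Valid m w := by
    intro w hw
    rcases List.mem_cons.1 hw with rfl | hw
    · exact hom
    · exact hrg w hw
  have h2 := heq _ _ (fun j hj => by rw [List.mem_singleton.1 hj]; omega) (rword_valid hv _) h1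
  rw [wd, wd, mul_one, ext, if_pos hk] at h2
  have h3 : closure {x | ∃ w ∈ om :: rg, x = wd m S w} ≤ closure ({x | ∃ w ∈ rg, x = wd m S w} ∪ {wd m S om}) := by
    rw [closure_le]
    rintro _ ⟨w, hw, rfl⟩
    rcases List.mem_cons.1 hw with rfl | hw
    · exact Subgroup.subset_closure (Or.inr rfl)
    · exact Subgroup.subset_closure (Or.inl ⟨w, hw, rfl⟩)
  rw [h2]
  exact h3 (rword_mem (om :: rg) _)

end group

end Cfsg.Agent.H698.U33
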