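import Cfsg.Agent.H698.U33.Clo.Fin
import Cfsg.Agent.H698.U33.Clo.Cen

/-!
# S5525, type I: the conclusion from the table and the refutations (helper698)

`hI_of` : `t : Fin 3510 → G` injective, the letters `τ, w4, w5` act on it with the tables of helper763, `t 53` is the word `om`,
and the 279 representatives are refuted; then the triples `(u, f, h⁻¹ x27 h)`, `h ∈ XX`, have a centralizer.
-/

set_option autoImplicit false
set_option maxRecDepth 100000

namespace Cfsg.Agent.H698.U33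

open Cfsg.Agent.BabyM.Conc Cfsg.Agent.H819.U33
open Cfsg.Agent.H763.U33.Dat (tabs)

/-- half of the word of `x27` (= `H863.U33.wx27h`) -/
def w27h : List Ltr :=
  [.X10, .X0, .X1, .X4, .X5, .X8, .Z2, .Z9, .y4, .xi, .y7, .p9, .y3, .xii, .p5, .xi, .p3, .y7, .X4, .taui, .X4,
  .y7, .p8, .xii, .p6, .xi, .y3, .p2, .y7, .xii, .y4, .X3, .X4, .X5, .X6, .Z5, .z, .tau]

/-- the word of `x27` (= `H863.U33.wx27`) -/
def w27 : List Ltr := w27h ++ w27h

theorem c27 : BM.StageW.chk (flat 18 L18 (winv 18 (rword rgR [4, 3, 1, 3, 1, 3, 4, 3, 4, 3, 1]) ++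
    (sgn 18 false Clo.x13 ++ rword rgR [4, 3, 1, 3, 1, 3, 4, 3, 4, 3, 1]))) w27 = true := by decide +kernel

theorem hI_of {t : Fin 3510 → G} (ht : Function.Injective t)
    (hact : ∀ k < 3, ∀ i : Fin 3510, ∃ j : Fin 3510, (j : ℕ) = H123.Cls.lk 12 (H123.Cls.nth tabs k) i ∧
      (S3 k)⁻¹ * t i * S3 k = t j)
    (homt : wd 18 S18 Clo.om = tn t Clo.i0)
    (hnt : ∀ x ∈ Clo.xs, x = Clo.x14 ∨ x = Clo.x32 ∨ x = Clo.x160 ∨
      (¬ Trip (g wu) (g wf) (g (flat 18 L18 x)) ∧ ¬ Trip (g wu) (g wf) (g (flat 18 L18 x))⁻¹)) :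
    ∀ h ∈ XX, Trip (g wu) (g wf) (h⁻¹ * g w27 * h) → H524.U33.Cen (g wu) (g wf) (h⁻¹ * g w27 * h) := by
  refine typeI_of ht hact (valid_of Clo.om_valid) (by decide : Clo.i0 < 3510) homt Clo.orb_ok
    (fun x hx => valid_of (List.all_eq_true.1 Clo.xs_valid x hx)) Clo.closed Clo.gen_ok (x0 := Clo.x13) ?_ c27
    fun x hx => ?_
  · rw [Clo.xs_eq]
    exact List.mem_append_right _ (List.mem_append_left _ (by decide))
  · rcases hnt x hx with rfl | rfl | rfl | h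
    · exact Or.inl ⟨_, _, Clo.cen14⟩
    · exact Or.inl ⟨_, _, Clo.cen32⟩
    · exact Or.inl ⟨_, _, Clo.cen160⟩
    · exact Or.inr (Or.inr h)

end Cfsg.Agent.H698.U33
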