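import Mathlib

/-!
# S5525, box H3: certificates by a permutation action on conjugates (helper698)

`G` a finite group, letters `S k` (`k < m`), elements `t i` (`i < n`) permuted by the letters under conjugation with
Nat-coded tables (`lk P i = (P >>> (12 * i)) % 4096`). Words are lists of letters, `k + m` is the inverse of letter `k`,
the first letter acts first.

* `Act` : the action; `act_spec`;
* `Act.inj_of` : injectivity of `t`;
* `Act.base` : base certificate: the letters generate `X`, words with the same images of the base are equal;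
* `Act.closed` : the closure certificate.
-/

set_option autoImplicit false
set_option linter.unusedSectionVars false

namespace Cfsg.Agent.H698.U33

open Subgroup

/-- entry `i` of a table with 12 bits per entry -/
def lk (P i : ℕ) : ℕ := Nat.land (Nat.shiftRight P (Nat.mul 12 i)) 4095

theorem lk_eq (P i : ℕ) : lk P i = (P >>> (12 * i)) % 4096 := Nat.and_two_pow_sub_one_eq_mod _ 12

/-- strict application (for the kernel) -/
noncomputable def force {α : Type} (x : ℕ) (f : ℕ → α) : α := Nat.rec (f 0) (fun n _ => f (Nat.succ n)) x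

theorem force_eq {α : Type} (x : ℕ) (f : ℕ → α) : force x f = f x := by cases x <;> rfl

/-- the `k`-th table -/
noncomputable def getF (l : List ℕ) : ℕ → ℕ :=
  List.rec (motive := fun _ => ℕ → ℕ) (fun _ => 0)
    (fun x _ ih k => Nat.rec (motive := fun _ => ℕ) x (fun j _ => ih j) k) l

theorem getF_eq (l : List ℕ) : ∀ k, getF l k = l.getD k 0 := by
  induction l with
  | nil => intro k; rfl
  | cons x l ih =>
    intro k
    cases k with
    | zero => rfl
    | succ k => exact (ih k).trans (by simp)

/-- the action of a word on points, first letter first -/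
noncomputable def act (ps w : List ℕ) : ℕ → ℕ :=
  List.rec (motive := fun _ => ℕ → ℕ) (fun i => i) (fun k _ ih i => force (lk (getF ps k) i) ih) w

theorem act_nil (ps : List ℕ) (i : ℕ) : act ps [] i = i := rfl

theorem act_cons (ps : List ℕ) (k : ℕ) (w : List ℕ) (i : ℕ) :
    act ps (k :: w) i = act ps w (lk (ps.getD k 0) i) := by
  rw [← getF_eq]
  exact force_eq _ _

theorem act_append (ps : List ℕ) (v w : List ℕ) (i : ℕ) : act ps (v ++ w) i = act ps w (act ps v i) := by
  induction v generalizing i with
  | nil => rfl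
  | cons k v ih => rw [List.cons_append, act_cons, act_cons, ih]

theorem blt_iff {a b : ℕ} : Nat.blt a b = true ↔ a < b := by rw [Nat.blt_eq]

/-- the inverse letter -/
def ivl (m k : ℕ) : ℕ := bif Nat.blt k m then k + m else k - m

theorem ivl_lt {m k : ℕ} (h : k < m) : ivl m k = k + m := by
  have : Nat.blt k m = true := blt_iff.2 h
  rw [ivl, this, cond_true]

theorem ivl_ge {m k : ℕ} (h : m ≤ k) : ivl m k = k - m := by
  have : Nat.blt k m = false := by
    rw [Bool.eq_false_iff]
    intro h1
    have := blt_iff.1 h1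
    omega
  rw [ivl, this, cond_false]

/-- the inverse word -/
def winv (m : ℕ) (w : List ℕ) : List ℕ := (w.map (ivl m)).reverse

/-- words in the letters `< 2 m` -/
def Valid (m : ℕ) (w : List ℕ) : Prop := ∀ k ∈ w, k < 2 * m

def validb (m : ℕ) (w : List ℕ) : Bool := w.all fun k => Nat.blt k (2 * m)

theorem valid_of {m : ℕ} {w : List ℕ} (h : validb m w = true) : Valid m w := fun k hk =>
  blt_iff.1 (List.all_eq_true.1 h k hk)

theorem Valid.append {m : ℕ} {v w : List ℕ} (hv : Valid m v) (hw : Valid m w) : Valid m (v ++ w) := by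
  intro k hk
  rcases List.mem_append.1 hk with h | h
  · exact hv k h
  · exact hw k h

theorem Valid.winv {m : ℕ} {w : List ℕ} (hw : Valid m w) : Valid m (winv m w) := by
  intro k hk
  rw [U33.winv, List.mem_reverse, List.mem_map] at hk
  obtain ⟨j, hj, rfl⟩ := hk
  have h1 := hw j hj
  rcases Nat.lt_or_ge j m with h2 | h2
  · rw [ivl_lt h2]; omega
  · rw [ivl_ge h2]; omega

theorem Valid.nil (m : ℕ) : Valid m [] := fun _ h => absurd h List.not_mem_nil

section group

variable {G : Type*} [Group G]

/-- the letters with their inverses -/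
def ext (m : ℕ) (S : ℕ → G) (k : ℕ) : G := if k < m then S k else (S (k - m))⁻¹

/-- the value of a word -/
def wd (m : ℕ) (S : ℕ → G) : List ℕ → G
  | [] => 1
  | k :: w => ext m S k * wd m S w

variable (m n : ℕ) (S t : ℕ → G) (ps : List ℕ)

theorem wd_append (v w : List ℕ) : wd m S (v ++ w) = wd m S v * wd m S w := by
  induction v with
  | nil => rw [List.nil_append, wd, one_mul]
  | cons k v ih => rw [List.cons_append, wd, ih, wd, mul_assoc]

theorem ext_ivl {k : ℕ} (h : k < 2 * m) : ext m S (ivl m k) = (ext m S k)⁻¹ := by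
  rcases Nat.lt_or_ge k m with h2 | h2
  · have h3 : ext m S (k + m) = (S (k + m - m))⁻¹ := if_neg (by omega)
    have h4 : ext m S k = S k := if_pos h2
    rw [ivl_lt h2, h3, h4, Nat.add_sub_cancel]
  · have h3 : ext m S (k - m) = S (k - m) := if_pos (by omega)
    have h4 : ext m S k = (S (k - m))⁻¹ := if_neg (by omega)
    rw [ivl_ge h2, h3, h4, inv_inv]

theorem wd_winv {w : List ℕ} (hw : Valid m w) : wd m S (winv m w) = (wd m S w)⁻¹ := by
  induction w with
  | nil => rw [winv, List.map_nil, List.reverse_nil, wd, inv_one]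
  | cons k w ih =>
    have h1 : winv m (k :: w) = winv m w ++ [ivl m k] := by
      rw [winv, List.map_cons, List.reverse_cons]; rfl
    rw [h1, wd_append, ih (fun j hj => hw j (List.mem_cons_of_mem k hj)), wd, wd, wd, mul_one, mul_inv_rev,
      ext_ivl m S (hw k List.mem_cons_self)]

/-- the group generated by the letters -/
def HH : Subgroup G := closure {x | ∃ k < m, x = S k}

theorem wd_mem {X : Subgroup G} (hX : ∀ k < m, S k ∈ X) {w : List ℕ} (hw : Valid m w) : wd m S w ∈ X := by
  induction w with
  | nil => exact X.one_mem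
  | cons k w ih =>
    rw [wd]
    refine X.mul_mem ?_ (ih fun j hj => hw j (List.mem_cons_of_mem k hj))
    have h1 := hw k List.mem_cons_self
    rw [ext]
    split_ifs with h2
    · exact hX k h2
    · exact X.inv_mem (hX _ (by omega))

theorem wd_mem_HH {w : List ℕ} (hw : Valid m w) : wd m S w ∈ HH m S :=
  wd_mem m S (fun k hk => Subgroup.subset_closure (show S k ∈ {x | ∃ k < m, x = S k} from ⟨k, hk, rfl⟩)) hw

theorem exists_word {x : G} (hx : x ∈ HH m S) : ∃ w, Valid m w ∧ wd m S w = x := by
  refine Subgroup.closure_induction (p := fun x _ => ∃ w, Valid m w ∧ wd m S w = x) ?_ ?_ ?_ ?_ hx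
  · rintro _ ⟨k, hk, rfl⟩
    refine ⟨[k], fun j hj => ?_, ?_⟩
    · rw [List.mem_singleton] at hj
      omega
    · rw [wd, wd, mul_one, ext, if_pos hk]
  · exact ⟨[], Valid.nil m, rfl⟩
  · rintro _ _ _ _ ⟨v, hv, rfl⟩ ⟨w, hw, rfl⟩
    exact ⟨v ++ w, hv.append hw, wd_append m S v w⟩
  · rintro _ _ ⟨w, hw, rfl⟩
    exact ⟨winv m w, hw.winv, wd_winv m S hw⟩

/-- the kernel check of the tables (inverse tables included) -/
noncomputable def permb : Bool := (List.range (2 * m)).all fun k => (List.range n).all fun i =>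
  force (lk (getF ps k) i) fun j => Nat.blt j n && Nat.beq (lk (getF ps (ivl m k)) j) i

/-- **The action.** -/
structure Act : Prop where
  lt : ∀ k < 2 * m, ∀ i < n, lk (ps.getD k 0) i < n
  pinv : ∀ k < 2 * m, ∀ i < n, lk (ps.getD (ivl m k) 0) (lk (ps.getD k 0) i) = i
  conj : ∀ k < 2 * m, ∀ i < n, (ext m S k)⁻¹ * t i * ext m S k = t (lk (ps.getD k 0) i)

theorem Act.of (hp : permb m n ps = true)
    (hc : ∀ k < m, ∀ i < n, (S k)⁻¹ * t i * S k = t (lk (ps.getD k 0) i)) : Act m n S t ps := by
  have h1 : ∀ k < 2 * m, ∀ i < n, lk (ps.getD k 0) i < n ∧ lk (ps.getD (ivl m k) 0) (lk (ps.getD k 0) i) = i := by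
    intro k hk i hi
    have h2 := List.all_eq_true.1 hp k (List.mem_range.2 hk)
    have h3 := List.all_eq_true.1 h2 i (List.mem_range.2 hi)
    rw [force_eq, Bool.and_eq_true, getF_eq, getF_eq] at h3
    exact ⟨blt_iff.1 h3.1, Nat.eq_of_beq_eq_true h3.2⟩
  refine ⟨fun k hk i hi => (h1 k hk i hi).1, fun k hk i hi => (h1 k hk i hi).2, fun k hk i hi => ?_⟩
  rcases Nat.lt_or_ge k m with h2 | h2
  · rw [ext, if_pos h2]
    exact hc k h2 i hi
  · obtain ⟨h3, h4⟩ := h1 k hk i hi
    rw [ivl_ge h2] at h4
    have h5 := hc (k - m) (by omega) _ h3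
    rw [h4] at h5
    rw [ext, if_neg (by omega), inv_inv, ← h5]
    group

variable {m n S t ps}

namespace Act

variable (h : Act m n S t ps)

include h

theorem spec {w : List ℕ} (hw : Valid m w) {i : ℕ} (hi : i < n) :
    act ps w i < n ∧ (wd m S w)⁻¹ * t i * wd m S w = t (act ps w i) := by
  induction w generalizing i with
  | nil => exact ⟨hi, by rw [wd, act_nil, inv_one, one_mul, mul_one]⟩
  | cons k w ih =>
    have hk := hw k List.mem_cons_self
    obtain ⟨h1, h2⟩ := ih (fun j hj => hw j (List.mem_cons_of_mem k hj)) (h.lt k hk i hi)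
    rw [act_cons]
    refine ⟨h1, ?_⟩
    rw [wd, ← h2, ← h.conj k hk i hi]
    group

theorem act_winv {w : List ℕ} (hw : Valid m w) {i : ℕ} (hi : i < n) : act ps (winv m w) (act ps w i) = i := by
  induction w generalizing i with
  | nil => rfl
  | cons k w ih =>
    have hk := hw k List.mem_cons_self
    have h1 : winv m (k :: w) = winv m w ++ [ivl m k] := by
      rw [winv, List.map_cons, List.reverse_cons]; rfl
    have h2 : act ps (winv m w) (act ps (k :: w) i) = lk (ps.getD k 0) i := by
      rw [act_cons]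
      exact ih (fun j hj => hw j (List.mem_cons_of_mem k hj)) (h.lt k hk i hi)
    rw [h1, act_append, h2, act_cons, act_nil]
    exact h.pinv k hk i hi

theorem ivl_ivl {k : ℕ} (hk : k < 2 * m) : ivl m (ivl m k) = k := by
  rcases Nat.lt_or_ge k m with h2 | h2
  · rw [ivl_lt h2, ivl_ge (by omega), Nat.add_sub_cancel]
  · rw [ivl_ge h2, ivl_lt (by omega)]
    omega

theorem winv_winv {w : List ℕ} (hw : Valid m w) : winv m (winv m w) = w := by
  rw [winv, winv, List.map_reverse, List.reverse_reverse, List.map_map]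
  conv_rhs => rw [← List.map_id w]
  exact List.map_congr_left fun k hk => h.ivl_ivl (hw k hk)

theorem act_winv' {w : List ℕ} (hw : Valid m w) {i : ℕ} (hi : i < n) : act ps w (act ps (winv m w) i) = i := by
  have h1 := h.act_winv hw.winv hi
  rwa [h.winv_winv hw] at h1

end Act

/-! ### trees -/

/-- a rooted tree on `k` points, Nat-coded: `pt i` the points, `pt i` is the image of `pt (par i)` under word `gen i`,
`pos (pt i) = i` -/
structure Tree where
  /-- number of points -/
  k : ℕ
  /-- points -/
  pt : ℕ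
  /-- parents -/
  par : ℕ
  /-- words -/
  gen : ℕ
  /-- positions -/
  pos : ℕ

/-- the check of a tree with root `b` -/
noncomputable def Tree.ok (ps : List ℕ) (gens : List (List ℕ)) (b : ℕ) (T : Tree) : Bool :=
  Nat.beq (lk T.pt 0) b && (List.range T.k).all fun i => Nat.beq (lk T.pos (lk T.pt i)) i &&
    (Nat.beq i 0 || (Nat.blt (lk T.par i) i &&
      Nat.beq (act ps (gens.getD (lk T.gen i) []) (lk T.pt (lk T.par i))) (lk T.pt i)))

/-- the words are valid and fix the points `prev` -/
noncomputable def gensb (m : ℕ) (ps : List ℕ) (prev : List ℕ) (gens : List (List ℕ)) : Bool :=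
  gens.all fun w => validb m w && prev.all fun p => Nat.beq (act ps w p) p

/-- the pointwise stabiliser of `t p`, `p ∈ prev`, in the group generated by the letters -/
def KK (m : ℕ) (S t : ℕ → G) (prev : List ℕ) : Subgroup G := HH m S ⊓ centralizer {x | ∃ p ∈ prev, x = t p}

theorem mem_KK {prev : List ℕ} {x : G} : x ∈ KK m S t prev ↔ x ∈ HH m S ∧ ∀ p ∈ prev, x * t p = t p * x := by
  rw [KK, mem_inf, mem_centralizer_iff]
  constructor
  · rintro ⟨h1, h2⟩
    exact ⟨h1, fun p hp => (h2 _ ⟨p, hp, rfl⟩).symm⟩
  · rintro ⟨h1, h2⟩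
    refine ⟨h1, ?_⟩
    rintro _ ⟨p, hp, rfl⟩
    exact (h2 p hp).symm

namespace Act

variable (h : Act m n S t ps)

include h

theorem gen_mem {prev : List ℕ} (hprev : ∀ p ∈ prev, p < n) {gens : List (List ℕ)}
    (hg : gensb m ps prev gens = true) (a : ℕ) :
    Valid m (gens.getD a []) ∧ wd m S (gens.getD a []) ∈ KK m S t prev ∧ ∀ p ∈ prev, act ps (gens.getD a []) p = p := by
  rcases Nat.lt_or_ge a gens.length with ha | ha
  · have h1 : gens.getD a [] ∈ gens := by
      rw [List.getD_eq_getElem _ _ ha]
      exact List.getElem_mem ha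
    have h2 := List.all_eq_true.1 hg _ h1
    rw [Bool.and_eq_true] at h2
    have hv := valid_of h2.1
    have hf : ∀ p ∈ prev, act ps (gens.getD a []) p = p := fun p hp =>
      Nat.eq_of_beq_eq_true (List.all_eq_true.1 h2.2 p hp)
    refine ⟨hv, mem_KK.2 ⟨wd_mem_HH m S hv, fun p hp => ?_⟩, hf⟩
    have h3 := (h.spec hv (hprev p hp)).2
    rw [hf p hp] at h3
    calc wd m S (gens.getD a []) * t p = wd m S (gens.getD a []) *
          ((wd m S (gens.getD a []))⁻¹ * t p * wd m S (gens.getD a [])) := by rw [h3]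
      _ = t p * wd m S (gens.getD a []) := by group
  · have h1 : gens.getD a [] = [] := List.getD_eq_default _ _ ha
    rw [h1]
    exact ⟨Valid.nil m, Subgroup.one_mem _, fun p _ => rfl⟩

/-- the points of a tree are reached from the root -/
theorem reach {prev : List ℕ} (hprev : ∀ p ∈ prev, p < n) {gens : List (List ℕ)}
    (hg : gensb m ps prev gens = true) {b : ℕ} {T : Tree} (hT : T.ok ps gens b = true) :
    ∀ i < T.k, lk T.pos (lk T.pt i) = i ∧ ∃ w, Valid m w ∧ wd m S w ∈ KK m S t prev ∧ (∀ p ∈ prev, act ps w p = p) ∧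
      act ps w b = lk T.pt i := by
  rw [Tree.ok, Bool.and_eq_true] at hT
  have h0 := Nat.eq_of_beq_eq_true hT.1
  intro i
  induction i using Nat.strong_induction_on with
  | _ i ih =>
    intro hi
    have h1 := List.all_eq_true.1 hT.2 i (List.mem_range.2 hi)
    rw [Bool.and_eq_true, Bool.or_eq_true] at h1
    refine ⟨Nat.eq_of_beq_eq_true h1.1, ?_⟩
    rcases h1.2 with h2 | h2
    · have h3 : i = 0 := Nat.eq_of_beq_eq_true h2
      subst h3
      exact ⟨[], Valid.nil m, Subgroup.one_mem _, fun p _ => rfl, h0.symm⟩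
    · rw [Bool.and_eq_true] at h2
      have h3 : lk T.par i < i := blt_iff.1 h2.1
      have h4 := Nat.eq_of_beq_eq_true h2.2
      obtain ⟨-, w, hw1, hw2, hw3, hw4⟩ := ih _ h3 (h3.trans hi)
      obtain ⟨hg1, hg2, hg3⟩ := h.gen_mem hprev hg (lk T.gen i)
      refine ⟨w ++ gens.getD (lk T.gen i) [], hw1.append hg1, ?_, fun p hp => ?_, ?_⟩
      · rw [wd_append]
        exact Subgroup.mul_mem _ hw2 hg2
      · rw [act_append, hw3 p hp, hg3 p hp]
      · rw [act_append, hw4, h4]

/-- **Orbit and stabiliser.** -/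
theorem count [Finite G] (hinj : ∀ i < n, ∀ j < n, t i = t j → i = j) {prev : List ℕ} (hprev : ∀ p ∈ prev, p < n)
    {gens : List (List ℕ)} (hg : gensb m ps prev gens = true) {b : ℕ} (hb : b < n) {T : Tree}
    (hT : T.ok ps gens b = true) : T.k * Nat.card (KK m S t (b :: prev)) ≤ Nat.card (KK m S t prev) := by
  have hr := h.reach hprev hg hT
  have hle : KK m S t (b :: prev) ≤ KK m S t prev := by
    intro x hx
    rw [mem_KK] at hx ⊢
    exact ⟨hx.1, fun p hp => hx.2 p (List.mem_cons_of_mem b hp)⟩
  have h1 : T.k ≤ (KK m S t (b :: prev)).relIndex (KK m S t prev) := by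
    have hex : ∀ i : Fin T.k, ∃ x : KK m S t prev, (x : G)⁻¹ * t b * x = t (lk T.pt i) ∧ lk T.pt i < n := by
      intro i
      obtain ⟨-, w, hw1, hw2, hw3, hw4⟩ := hr i i.2
      obtain ⟨h2, h3⟩ := h.spec hw1 hb
      rw [hw4] at h2 h3
      exact ⟨⟨_, hw2⟩, h3, h2⟩
    choose x hx hxn using hex
    have h2 : T.k = Nat.card (Fin T.k) := by rw [Nat.card_eq_fintype_card, Fintype.card_fin]
    rw [h2, Subgroup.relIndex, Subgroup.index]
    refine Nat.card_le_card_of_injective (fun i => (((x i)⁻¹ : KK m S t prev) : KK m S t prev ⧸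
      (KK m S t (b :: prev)).subgroupOf (KK m S t prev))) ?_
    intro i j hij
    have h3 := QuotientGroup.eq.1 hij
    rw [inv_inv, Subgroup.mem_subgroupOf, mem_KK] at h3
    have h4 : ((x i : G) * (x j : G)⁻¹) * t b = t b * ((x i : G) * (x j : G)⁻¹) := h3.2 b List.mem_cons_self
    have h5 : t (lk T.pt i) = t (lk T.pt j) := by
      rw [← hx i, ← hx j]
      calc (x i : G)⁻¹ * t b * x i = (x i : G)⁻¹ * (t b * ((x i : G) * (x j : G)⁻¹)) * x j := by group
        _ = (x i : G)⁻¹ * (((x i : G) * (x j : G)⁻¹) * t b) * x j := by rw [h4]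
        _ = _ := by group
    have h6 := hinj _ (hxn i) _ (hxn j) h5
    have h7 := (hr i i.2).1
    have h8 := (hr j j.2).1
    rw [h6, h8] at h7
    exact Fin.ext h7.symm
  have h2 := Subgroup.card_mul_index ((KK m S t (b :: prev)).subgroupOf (KK m S t prev))
  have h3 : Nat.card ((KK m S t (b :: prev)).subgroupOf (KK m S t prev)) = Nat.card (KK m S t (b :: prev)) :=
    Nat.card_congr (subgroupOfEquivOfLe hle).toEquiv
  rw [h3] at h2
  rw [← h2, mul_comm]
  exact Nat.mul_le_mul_left _ h1

end Act

/-- the check of the levels (base point, words, tree) -/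
noncomputable def levb (m n : ℕ) (ps : List ℕ) : List ℕ → List (ℕ × List (List ℕ) × Tree) → Bool
  | _, [] => true
  | prev, (b, gens, T) :: l => Nat.blt b n && (gensb m ps prev gens && (T.ok ps gens b && levb m n ps (b :: prev) l))

theorem Act.chain [Finite G] (h : Act m n S t ps) (hinj : ∀ i < n, ∀ j < n, t i = t j → i = j) :
    ∀ (l : List (ℕ × List (List ℕ) × Tree)) (prev : List ℕ), (∀ p ∈ prev, p < n) → levb m n ps prev l = true →
      (l.map fun x => x.2.2.k).prod * Nat.card (KK m S t ((l.map fun x => x.1).reverse ++ prev)) ≤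
        Nat.card (KK m S t prev) := by
  intro l
  induction l with
  | nil =>
    intro prev _ _
    rw [List.map_nil, List.prod_nil, one_mul, List.map_nil, List.reverse_nil, List.nil_append]
  | cons x l ih =>
    obtain ⟨b, gens, T⟩ := x
    intro prev hprev hl
    rw [levb, Bool.and_eq_true, Bool.and_eq_true, Bool.and_eq_true] at hl
    obtain ⟨h1, h2, h3, h4⟩ := hl
    have hb : b < n := blt_iff.1 h1
    have h5 := ih (b :: prev) (fun p hp => by
      rcases List.mem_cons.1 hp with rfl | hp
      · exact hb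
      · exact hprev p hp) h4
    have h6 := h.count hinj hprev h2 hb h3
    have h7 : (((b, gens, T) :: l).map fun x => x.1).reverse ++ prev = (l.map fun x => x.1).reverse ++ (b :: prev) := by
      rw [List.map_cons, List.reverse_cons, List.append_assoc]
      rfl
    rw [h7, List.map_cons, List.prod_cons, mul_assoc]
    exact (Nat.mul_le_mul_left _ h5).trans h6

/-- equality of the images of the base -/
noncomputable def eqb (ps base : List ℕ) (v w : List ℕ) : Bool := base.all fun b => Nat.beq (act ps v b) (act ps w b)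

/-- **The base certificate.** -/
theorem Act.base [Finite G] (h : Act m n S t ps) (hinj : ∀ i < n, ∀ j < n, t i = t j → i = j)
    {l : List (ℕ × List (List ℕ) × Tree)} (hl : levb m n ps [] l = true) {X : Subgroup G} (hSX : ∀ k < m, S k ∈ X)
    (hX : Nat.card X ≤ (l.map fun x => x.2.2.k).prod) :
    HH m S = X ∧ ∀ v w, Valid m v → Valid m w → eqb ps (l.map fun x => x.1) v w = true → wd m S v = wd m S w := by
  have h1 := h.chain hinj l [] (fun _ hp => absurd hp List.not_mem_nil) hl
  rw [List.append_nil] at h1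
  have h2 : KK m S t [] ≤ HH m S := inf_le_left
  have h3 : HH m S ≤ X := by
    rw [HH, closure_le]
    rintro _ ⟨k, hk, rfl⟩
    exact hSX k hk
  have h4 : Nat.card (KK m S t []) ≤ Nat.card (HH m S) := Subgroup.card_le_of_le h2
  have h5 : Nat.card (HH m S) ≤ Nat.card X := Subgroup.card_le_of_le h3
  set K := KK m S t ((l.map fun x => x.1).reverse) with hK
  set N := (l.map fun x => x.2.2.k).prod with hN
  have h6 : 0 < Nat.card K := Nat.card_pos
  have h7 : 0 < Nat.card X := Nat.card_pos
  have h8 : N * Nat.card K ≤ N := ((h1.trans h4).trans h5).trans hX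
  have hN0 : 0 < N := lt_of_lt_of_le h7 hX
  have h9 : Nat.card K = 1 := by
    have : Nat.card K ≤ 1 := by
      by_contra hcon
      have h10 : N * 2 ≤ N * Nat.card K := Nat.mul_le_mul_left _ (by omega)
      omega
    omega
  have h10 : N ≤ Nat.card (HH m S) := by
    have := h1.trans h4
    rwa [h9, mul_one] at this
  refine ⟨Subgroup.eq_of_le_of_card_ge h3 (hX.trans h10), fun v w hv hw hvw => ?_⟩
  have h11 : K = ⊥ := Subgroup.card_eq_one.1 h9
  have h12 : wd m S v * (wd m S w)⁻¹ ∈ K := by
    rw [hK, mem_KK]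
    refine ⟨Subgroup.mul_mem _ (wd_mem_HH m S hv) (Subgroup.inv_mem _ (wd_mem_HH m S hw)), fun p hp => ?_⟩
    have hp' : p ∈ l.map fun x => x.1 := List.mem_reverse.1 hp
    have h13 : act ps v p = act ps w p := Nat.eq_of_beq_eq_true (List.all_eq_true.1 hvw p hp')
    have hpn : p < n := by
      have : ∀ (l : List (ℕ × List (List ℕ) × Tree)) (prev : List ℕ), levb m n ps prev l = true →
          ∀ p ∈ l.map (fun x => x.1), p < n := by
        intro l
        induction l with
        | nil => intro _ _ p hp; exact absurd hp List.not_mem_nil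
        | cons x l ih =>
          obtain ⟨b, gens, T⟩ := x
          intro prev hl p hp
          rw [levb, Bool.and_eq_true, Bool.and_eq_true, Bool.and_eq_true] at hl
          rcases List.mem_cons.1 hp with rfl | hp
          · exact blt_iff.1 hl.1
          · exact ih _ hl.2.2.2 p hp
      exact this l [] hl p hp'
    have h14 := (h.spec hv hpn).2
    have h15 := (h.spec hw hpn).2
    rw [h13, ← h15] at h14
    have h16 : t p * (wd m S v * (wd m S w)⁻¹) = wd m S v * ((wd m S v)⁻¹ * t p * wd m S v) * (wd m S w)⁻¹ := by group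
    rw [h16, h14]
    group
  rw [h11, mem_bot, mul_inv_eq_one] at h12
  exact h12

end group

end Cfsg.Agent.H698.U33
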