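import Cfsg.Agent.H819.U33.Words
import Cfsg.Agent.H698.U33.Frame

/-!
# S5525: the letters in the Baby Monster (helper698)

`L3` = `τ, w4, w5`; `L18` = the 18 letters of `H/perms.txt` (`t` with the 23-letter word of helper840); `flat` = the word in
`Ltr` of a word of letters (`k < m` : letter, `k + m` : inverse), `wd_flat` : its value.
-/

set_option autoImplicit false

namespace Cfsg.Agent.H698.U33

open Cfsg.Agent.BabyM.Conc Cfsg.Agent.H819.U33

/-- the short word of `t` (helper840) -/
def wt23 : List Ltr := [.y4, .xi, .y7, .p9, .y3, .xii, .p5, .xi, .p3, .y7, .X4, .tau, .X4, .y7, .p8, .xii, .p6, .xi, .y3, .p2, .y7, .xii, .y4]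

/-- `τ, w4, w5` -/
def L3 : List (List Ltr) := [[.tau], ww4, ww5]

/-- `τ, t, q0 .. q9, w0 .. w5` -/
def L18 : List (List Ltr) :=
  [[.tau], wt23, wq0, wq1, wq2, wq3, wq4, wq5, wq6, wq7, wq8, wq9, ww0, ww1, ww2, ww3, ww4, ww5]

/-- the letters of a list of words -/
noncomputable def Sg (L : List (List Ltr)) (k : ℕ) : G := g (L.getD k [])

noncomputable abbrev S3 : ℕ → G := Sg L3

noncomputable abbrev S18 : ℕ → G := Sg L18

/-- the word in `Ltr` -/
def flat (m : ℕ) (L : List (List Ltr)) : List ℕ → List Ltr
  | [] => []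
  | k :: v => (bif Nat.blt k m then L.getD k [] else Cfsg.Agent.BabyM.TransInv.winv (L.getD (k - m) [])) ++ flat m L v

theorem wd_flat (m : ℕ) (L : List (List Ltr)) (v : List ℕ) : wd m (Sg L) v = g (flat m L v) := by
  induction v with
  | nil => exact g_nil.symm
  | cons k v ih =>
    rw [wd, flat, g_append, ih]
    congr 1
    rcases Nat.lt_or_ge k m with h | h
    · rw [ext, if_pos h, blt_iff.2 h, cond_true]
      rfl
    · have h1 : Nat.blt k m = false := by
        rw [Bool.eq_false_iff]
        intro h1
        have := blt_iff.1 h1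
        omega
      rw [ext, if_neg (by omega), h1, cond_false, g_winv]
      rfl

end Cfsg.Agent.H698.U33
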