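import Cfsg.Agent.H698.U33.Ext18
import Cfsg.Agent.H698.U33.Let

/-!
# S5525: the 18 letters as words in `τ, w4, w5` in the Baby Monster (helper698)
-/

set_option autoImplicit false

namespace Cfsg.Agent.H698.U33

open Cfsg.Agent.BabyM.Conc Cfsg.Agent.H819.U33

theorem s18_of {k : ℕ} (h : BM.StageW.chk (L18.getD k []) (flat 3 L3 (sw18.getD k [])) = true) :
    S18 k = wd 3 S3 (sw18.getD k []) := by
  rw [wd_flat]
  exact eq_of h

theorem s18_0 : BM.StageW.chk (L18.getD 0 []) (flat 3 L3 (sw18.getD 0 [])) = true := by decide +kernel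

theorem s18_1 : BM.StageW.chk (L18.getD 1 []) (flat 3 L3 (sw18.getD 1 [])) = true := by decide +kernel

theorem s18_2 : BM.StageW.chk (L18.getD 2 []) (flat 3 L3 (sw18.getD 2 [])) = true := by decide +kernel

theorem s18_3 : BM.StageW.chk (L18.getD 3 []) (flat 3 L3 (sw18.getD 3 [])) = true := by decide +kernel

theorem s18_4 : BM.StageW.chk (L18.getD 4 []) (flat 3 L3 (sw18.getD 4 [])) = true := by decide +kernel

theorem s18_5 : BM.StageW.chk (L18.getD 5 []) (flat 3 L3 (sw18.getD 5 [])) = true := by decide +kernel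

theorem s18_6 : BM.StageW.chk (L18.getD 6 []) (flat 3 L3 (sw18.getD 6 [])) = true := by decide +kernel

theorem s18_7 : BM.StageW.chk (L18.getD 7 []) (flat 3 L3 (sw18.getD 7 [])) = true := by decide +kernel

theorem s18_8 : BM.StageW.chk (L18.getD 8 []) (flat 3 L3 (sw18.getD 8 [])) = true := by decide +kernel

theorem s18_9 : BM.StageW.chk (L18.getD 9 []) (flat 3 L3 (sw18.getD 9 [])) = true := by decide +kernel

theorem s18_10 : BM.StageW.chk (L18.getD 10 []) (flat 3 L3 (sw18.getD 10 [])) = true := by decide +kernel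

theorem s18_11 : BM.StageW.chk (L18.getD 11 []) (flat 3 L3 (sw18.getD 11 [])) = true := by decide +kernel

theorem s18_12 : BM.StageW.chk (L18.getD 12 []) (flat 3 L3 (sw18.getD 12 [])) = true := by decide +kernel

theorem s18_13 : BM.StageW.chk (L18.getD 13 []) (flat 3 L3 (sw18.getD 13 [])) = true := by decide +kernel

theorem s18_14 : BM.StageW.chk (L18.getD 14 []) (flat 3 L3 (sw18.getD 14 [])) = true := by decide +kernel

theorem s18_15 : BM.StageW.chk (L18.getD 15 []) (flat 3 L3 (sw18.getD 15 [])) = true := by decide +kernel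

theorem s18_16 : BM.StageW.chk (L18.getD 16 []) (flat 3 L3 (sw18.getD 16 [])) = true := by decide +kernel

theorem s18_17 : BM.StageW.chk (L18.getD 17 []) (flat 3 L3 (sw18.getD 17 [])) = true := by decide +kernel

theorem s18 : ∀ k < 18, S18 k = wd 3 S3 (sw18.getD k []) := by
  intro k hk
  interval_cases k
  · exact s18_of s18_0
  · exact s18_of s18_1
  · exact s18_of s18_2
  · exact s18_of s18_3
  · exact s18_of s18_4
  · exact s18_of s18_5
  · exact s18_of s18_6
  · exact s18_of s18_7
  · exact s18_of s18_8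
  · exact s18_of s18_9
  · exact s18_of s18_10
  · exact s18_of s18_11
  · exact s18_of s18_12
  · exact s18_of s18_13
  · exact s18_of s18_14
  · exact s18_of s18_15
  · exact s18_of s18_16
  · exact s18_of s18_17

end Cfsg.Agent.H698.U33
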