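import Cfsg.Agent.H698.U33.Let18
import Cfsg.Agent.H995.U33.Pair

/-!
# S5525: the frame of `X` with 18 letters; the generators of `R` commute with `u`, `f` (helper698)

* `rgR` : the generators `τ, t, X10` of `R` and their inverses as words in the 18 letters;
* `hu`, `hf` : they commute with `g wu`, `g wf`;
* `mem_XX` : the letters are in `XX`;
* `Fr` : from the frame of helper763 (`τ, w4, w5`) to the 18 letters: `Act`, word equality, `HH 18 S18 = XX`.
-/

set_option autoImplicit false

namespace Cfsg.Agent.H698.U33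

open Cfsg.Agent.BabyM.Conc Cfsg.Agent.H819.U33

/-- the check that the letters of a list commute with `v` -/
theorem rg_comm {v : List Ltr} (h : ∀ k < 3, BM.StageW.chk (L18.getD k [] ++ v) (v ++ L18.getD k []) = true) :
    ∀ w ∈ rgR, wd 18 S18 w * g v = g v * wd 18 S18 w := by
  have h1 : ∀ k < 3, S18 k * g v = g v * S18 k := fun k hk => Cfsg.Agent.H819.U33.comm_of (h k hk)
  have h2 : ∀ k < 3, wd 18 S18 [k] = S18 k := fun k hk => by
    rw [wd, wd, mul_one, ext, if_pos (by omega)]
  have h3 : ∀ k < 3, wd 18 S18 [k + 18] = (S18 k)⁻¹ := fun k hk => by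
    rw [wd, wd, mul_one, ext, if_neg (by omega), Nat.add_sub_cancel]
  intro w hw
  simp only [rgR, List.mem_cons, List.not_mem_nil, or_false] at hw
  rcases hw with rfl | rfl | rfl | rfl | rfl | rfl
  · rw [h2 0 (by omega)]; exact h1 0 (by omega)
  · rw [h2 1 (by omega)]; exact h1 1 (by omega)
  · rw [h2 2 (by omega)]; exact h1 2 (by omega)
  · rw [h3 0 (by omega)]; exact (show Commute (S18 0) (g v) from h1 0 (by omega)).inv_left.eq
  · rw [h3 1 (by omega)]; exact (show Commute (S18 1) (g v) from h1 1 (by omega)).inv_left.eq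
  · rw [h3 2 (by omega)]; exact (show Commute (S18 2) (g v) from h1 2 (by omega)).inv_left.eq

theorem u0 : BM.StageW.chk (L18.getD 0 [] ++ wu) (wu ++ L18.getD 0 []) = true := by decide +kernel
theorem u1 : BM.StageW.chk (L18.getD 1 [] ++ wu) (wu ++ L18.getD 1 []) = true := by decide +kernel
theorem u2 : BM.StageW.chk (L18.getD 2 [] ++ wu) (wu ++ L18.getD 2 []) = true := by decide +kernel
theorem f0 : BM.StageW.chk (L18.getD 0 [] ++ wf) (wf ++ L18.getD 0 []) = true := by decide +kernel
theorem f1 : BM.StageW.chk (L18.getD 1 [] ++ wf) (wf ++ L18.getD 1 []) = true := by decide +kernel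
theorem f2 : BM.StageW.chk (L18.getD 2 [] ++ wf) (wf ++ L18.getD 2 []) = true := by decide +kernel

theorem hu : ∀ w ∈ rgR, wd 18 S18 w * g wu = g wu * wd 18 S18 w :=
  rg_comm fun k hk => by
    interval_cases k
    · exact u0
    · exact u1
    · exact u2

theorem hf : ∀ w ∈ rgR, wd 18 S18 w * g wf = g wf * wd 18 S18 w :=
  rg_comm fun k hk => by
    interval_cases k
    · exact f0
    · exact f1
    · exact f2

/-! ### the letters are in `XX` -/

theorem x1 (k : ℕ) (v : List Ltr) (h : BM.StageW.chk (L3.getD k [] ++ v) (v ++ L3.getD k []) = true) :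
    g v * S3 k = S3 k * g v := (Cfsg.Agent.H819.U33.comm_of h).symm

theorem c01 : BM.StageW.chk (L3.getD 0 [] ++ wd1) (wd1 ++ L3.getD 0 []) = true := by decide +kernel
theorem c02 : BM.StageW.chk (L3.getD 0 [] ++ wd2) (wd2 ++ L3.getD 0 []) = true := by decide +kernel
theorem c11 : BM.StageW.chk (L3.getD 1 [] ++ wd1) (wd1 ++ L3.getD 1 []) = true := by decide +kernel
theorem c12 : BM.StageW.chk (L3.getD 1 [] ++ wd2) (wd2 ++ L3.getD 1 []) = true := by decide +kernel
theorem c21 : BM.StageW.chk (L3.getD 2 [] ++ wd1) (wd1 ++ L3.getD 2 []) = true := by decide +kernel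
theorem c22 : BM.StageW.chk (L3.getD 2 [] ++ wd2) (wd2 ++ L3.getD 2 []) = true := by decide +kernel

theorem mem_XX : ∀ k < 3, S3 k ∈ XX := by
  intro k hk
  unfold XX
  rw [Subgroup.mem_centralizer_iff]
  intro y hy
  rcases hy with rfl | rfl
  · interval_cases k
    · exact x1 0 _ c01
    · exact x1 1 _ c11
    · exact x1 2 _ c21
  · interval_cases k
    · exact x1 0 _ c02
    · exact x1 1 _ c12
    · exact x1 2 _ c22

/-! ### the frame with 18 letters -/

open Cfsg.Agent.H763.U33 (Frame)
open Cfsg.Agent.H763.U33.Dat (tabs Ls Sx)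

example : Finite G := inferInstance

theorem frame {t : Fin 3510 → G} (ht : Function.Injective t)
    (hact : ∀ k < 3, ∀ i : Fin 3510, ∃ j : Fin 3510, (j : ℕ) = H123.Cls.lk 12 (H123.Cls.nth tabs k) i ∧
      (S3 k)⁻¹ * t i * S3 k = t j) : Frame 3510 12 tabs Ls (Sx S3) t XX :=
  H763.U33.Dat.frame_of ht inferInstance (by rw [card_XX]) mem_XX hact

theorem act18 {t : Fin 3510 → G} (h : Frame 3510 12 tabs Ls (Sx S3) t XX) : Act 18 3510 S18 (tn t) ps18 :=
  (act_of h).extend permb18 sw18_valid s18 ext18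

theorem base7_lt : ∀ b ∈ base7, b < 3510 := by
  have h : (base7.all fun b => Nat.blt b 3510) = true := by decide +kernel
  exact fun b hb => blt_iff.1 (List.all_eq_true.1 h b hb)

theorem eq18 {t : Fin 3510 → G} (h : Frame 3510 12 tabs Ls (Sx S3) t XX) :
    ∀ v w, Valid 18 v → Valid 18 w → eqb ps18 base7 v w = true → wd 18 S18 v = wd 18 S18 w :=
  (act_of h).extend_eq base7_lt (eq_of_eqb h) permb18 sw18_valid s18 ext18

theorem HH18 {t : Fin 3510 → G} (h : Frame 3510 12 tabs Ls (Sx S3) t XX) : HH 18 S18 = XX := by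
  refine HH_extend (HH_of h) sw18_valid s18 fun k hk => ?_
  have h1 : ∀ j < 18, S18 j ∈ HH 18 S18 := fun j hj => Subgroup.subset_closure ⟨j, hj, rfl⟩
  interval_cases k
  · exact h1 0 (by omega)
  · exact h1 16 (by omega)
  · exact h1 17 (by omega)

end Cfsg.Agent.H698.U33
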