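import Cfsg.Agent.H698.U33.TypeI

/-!
# S5525: word equality for more letters (helper698)

* `Act.extend_eq` : the base test for the new letters from the base test for the old ones.
-/

set_option autoImplicit false
set_option linter.unusedSectionVars false

namespace Cfsg.Agent.H698.U33

section group

variable {G : Type*} [Group G] {m n : ℕ} {S t : ℕ → G} {ps : List ℕ}

/-- the word in the old letters of a new letter -/
def sub1 (m m' : ℕ) (sw : List (List ℕ)) (k : ℕ) : List ℕ :=
  if k < m' then sw.getD k [] else winv m (sw.getD (k - m') [])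

/-- the word in the old letters -/
def sub (m m' : ℕ) (sw : List (List ℕ)) (v : List ℕ) : List ℕ := v.flatMap (sub1 m m' sw)

theorem sub_cons (m' : ℕ) (sw : List (List ℕ)) (k : ℕ) (v : List ℕ) :
    sub m m' sw (k :: v) = sub1 m m' sw k ++ sub m m' sw v := rfl

theorem sub1_valid {m' : ℕ} {sw : List (List ℕ)} (hv : ∀ k < m', Valid m (sw.getD k [])) {k : ℕ} (hk : k < 2 * m') :
    Valid m (sub1 m m' sw k) := by
  unfold sub1
  split_ifs with h
  · exact hv k h
  · exact (hv _ (by omega)).winv

theorem sub_valid {m' : ℕ} {sw : List (List ℕ)} (hv : ∀ k < m', Valid m (sw.getD k [])) {v : List ℕ}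
    (hvv : Valid m' v) : Valid m (sub m m' sw v) := by
  induction v with
  | nil => exact Valid.nil m
  | cons k v ih =>
    rw [sub_cons]
    exact (sub1_valid hv (hvv k List.mem_cons_self)).append (ih fun j hj => hvv j (List.mem_cons_of_mem k hj))

theorem wd_sub {m' : ℕ} {S' : ℕ → G} {sw : List (List ℕ)} (hv : ∀ k < m', Valid m (sw.getD k []))
    (hs : ∀ k < m', S' k = wd m S (sw.getD k [])) {v : List ℕ} (hvv : Valid m' v) :
    wd m' S' v = wd m S (sub m m' sw v) := by
  induction v with
  | nil => rfl
  | cons k v ih =>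
    rw [sub_cons, wd_append, wd, ih fun j hj => hvv j (List.mem_cons_of_mem k hj)]
    congr 1
    have hk := hvv k List.mem_cons_self
    unfold ext sub1
    split_ifs with h
    · exact hs k h
    · rw [wd_winv m S (hv _ (by omega)), hs _ (by omega)]

/-- **The base test for the new letters.** -/
theorem Act.extend_eq (h : Act m n S t ps) {base : List ℕ} (hbase : ∀ b ∈ base, b < n)
    (heq : ∀ v w, Valid m v → Valid m w → eqb ps base v w = true → wd m S v = wd m S w)
    {m' : ℕ} {S' : ℕ → G} {sw : List (List ℕ)} {ps' : List ℕ}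
    (hp : permb m' n ps' = true) (hv : ∀ k < m', Valid m (sw.getD k []))
    (hs : ∀ k < m', S' k = wd m S (sw.getD k [])) (he : ∀ k < m', extb1 n ps (sw.getD k []) (ps'.getD k 0) = true) :
    ∀ v w, Valid m' v → Valid m' w → eqb ps' base v w = true → wd m' S' v = wd m' S' w := by
  have h' := h.extend hp hv hs he
  have h1 : ∀ k < 2 * m', ∀ i < n, act ps (sub1 m m' sw k) i = lk (ps'.getD k 0) i := by
    intro k hk i hi
    unfold sub1
    split_ifs with h2
    · exact Nat.eq_of_beq_eq_true (List.all_eq_true.1 (he k h2) i (List.mem_range.2 hi))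
    · have h3 := h'.lt k hk i hi
      have h4 := h'.pinv k hk i hi
      rw [ivl_ge (by omega)] at h4
      have h5 : act ps (sw.getD (k - m') []) (lk (ps'.getD k 0) i) = lk (ps'.getD (k - m') 0) (lk (ps'.getD k 0) i) :=
        Nat.eq_of_beq_eq_true (List.all_eq_true.1 (he (k - m') (by omega)) _ (List.mem_range.2 h3))
      rw [h4] at h5
      have h6 := h.act_winv (hv (k - m') (by omega)) h3
      rwa [h5] at h6
  have h2 : ∀ v, Valid m' v → ∀ i < n, act ps' v i = act ps (sub m m' sw v) i := by
    intro v
    induction v with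
    | nil => intro _ i _; rfl
    | cons k v ih =>
      intro hvv i hi
      have hk := hvv k List.mem_cons_self
      rw [act_cons, sub_cons, act_append, h1 k hk i hi]
      exact ih (fun j hj => hvv j (List.mem_cons_of_mem k hj)) _ (h'.lt k hk i hi)
  intro v w hvv hww hvw
  rw [wd_sub hv hs hvv, wd_sub hv hs hww]
  refine heq _ _ (sub_valid hv hvv) (sub_valid hv hww) (List.all_eq_true.2 fun b hb => ?_)
  have h3 := Nat.eq_of_beq_eq_true (List.all_eq_true.1 hvw b hb)
  rw [← h2 v hvv b (hbase b hb), ← h2 w hww b (hbase b hb), h3]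
  exact Nat.beq_refl _

/-- the same group -/
theorem HH_extend {X : Subgroup G} (hX : HH m S = X) {m' : ℕ} {S' : ℕ → G} {sw : List (List ℕ)}
    (hv : ∀ k < m', Valid m (sw.getD k [])) (hs : ∀ k < m', S' k = wd m S (sw.getD k []))
    (hsur : ∀ k < m, S k ∈ HH m' S') : HH m' S' = X := by
  apply le_antisymm
  · rw [HH, Subgroup.closure_le]
    rintro _ ⟨k, hk, rfl⟩
    rw [hs k hk, SetLike.mem_coe, ← hX]
    exact wd_mem_HH m S (hv k hk)
  · rw [← hX]
    conv_lhs => rw [HH]
    rw [Subgroup.closure_le]
    rintro _ ⟨k, hk, rfl⟩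
    exact hsur k hk

end group

end Cfsg.Agent.H698.U33
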