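import Cfsg.Agent.H698.U33.Cert
import Cfsg.Agent.H819.U33.Trip

/-!
# S5525, box H7: type I (helper698)

* `Act.extend` : more letters, given by words in the old ones;
* `ne_one_of`, `comm_of` : tests;
* `typeI` : the conclusion.
-/

set_option autoImplicit false
set_option linter.unusedSectionVars false

namespace Cfsg.Agent.H698.U33

open Subgroup

section group

variable {G : Type*} [Group G] {m n : ℕ} {S t : ℕ → G} {ps : List ℕ}

/-- the check of new tables: table `k` is the action of the word `sw k` -/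
noncomputable def extb (n : ℕ) (ps : List ℕ) (m' : ℕ) (sw : List (List ℕ)) (ps' : List ℕ) : Bool :=
  (List.range m').all fun k => (List.range n).all fun i => Nat.beq (act ps (sw.getD k []) i) (lk (ps'.getD k 0) i)

/-- one letter of the check -/
noncomputable def extb1 (n : ℕ) (ps : List ℕ) (w : List ℕ) (P : ℕ) : Bool :=
  (List.range n).all fun i => Nat.beq (act ps w i) (lk P i)

/-- **More letters.** -/
theorem Act.extend (h : Act m n S t ps) {m' : ℕ} {S' : ℕ → G} {sw : List (List ℕ)} {ps' : List ℕ}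
    (hp : permb m' n ps' = true) (hv : ∀ k < m', Valid m (sw.getD k []))
    (hs : ∀ k < m', S' k = wd m S (sw.getD k [])) (he : ∀ k < m', extb1 n ps (sw.getD k []) (ps'.getD k 0) = true) :
    Act m' n S' t ps' := by
  refine Act.of m' n S' t ps' hp fun k hk i hi => ?_
  have h1 := (h.spec (hv k hk) hi).2
  have h2 : act ps (sw.getD k []) i = lk (ps'.getD k 0) i :=
    Nat.eq_of_beq_eq_true (List.all_eq_true.1 (he k hk) i (List.mem_range.2 hi))
  rw [hs k hk, ← h2]
  exact h1

/-- an element moving a point is not `1` -/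
theorem Act.ne_one_of (h : Act m n S t ps) (hinj : ∀ i < n, ∀ j < n, t i = t j → i = j) {c : List ℕ} (hc : Valid m c)
    {b : ℕ} (hb : b < n) (hne : Nat.beq (act ps c b) b = false) : wd m S c ≠ 1 := by
  intro h1
  obtain ⟨h2, h3⟩ := h.spec hc hb
  rw [h1, inv_one, one_mul, mul_one] at h3
  have h4 := hinj _ hb _ h2 h3
  rw [← h4] at hne
  rw [Nat.beq_refl] at hne
  exact absurd hne (by decide)

/-- commuting words -/
theorem comm_of {base : List ℕ} (heq : ∀ v w, Valid m v → Valid m w → eqb ps base v w = true → wd m S v = wd m S w)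
    {c x : List ℕ} (hc : Valid m c) (hx : Valid m x) (h : eqb ps base (c ++ x) (x ++ c) = true) :
    wd m S c * wd m S x = wd m S x * wd m S c := by
  have h1 := heq _ _ (hc.append hx) (hx.append hc) h
  rwa [wd_append, wd_append] at h1

/-- `c` (a word in the words `rg`) commutes with `x` and moves the point `b` -/
noncomputable def cenb (m n : ℕ) (ps base : List ℕ) (rg : List (List ℕ)) (x c : List ℕ) (b : ℕ) : Bool :=
  Nat.blt b n && (!(Nat.beq (act ps (rword rg c) b) b) && eqb ps base (rword rg c ++ x) (x ++ rword rg c))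

theorem cen_of (h : Act m n S t ps) (hinj : ∀ i < n, ∀ j < n, t i = t j → i = j) {base : List ℕ}
    (heq : ∀ v w, Valid m v → Valid m w → eqb ps base v w = true → wd m S v = wd m S w) {rg : List (List ℕ)}
    (hrg : ∀ w ∈ rg, Valid m w) {x c : List ℕ} (hx : Valid m x) {b : ℕ} (hb : cenb m n ps base rg x c b = true) :
    ∃ c ∈ RR m S rg, c ≠ 1 ∧ c * wd m S x = wd m S x * c := by
  rw [cenb, Bool.and_eq_true, Bool.and_eq_true] at hb
  obtain ⟨h1, h2, h3⟩ := hb
  have hv := rword_valid hrg c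
  refine ⟨_, rword_mem rg c, h.ne_one_of hinj hv (blt_iff.1 h1) ?_, comm_of heq hv hx h3⟩
  rw [Bool.not_eq_true'] at h2
  exact h2

theorem RR_comm {rg : List (List ℕ)} {v : G} (hv : ∀ w ∈ rg, wd m S w * v = v * wd m S w) {r : G}
    (hr : r ∈ RR m S rg) : r * v = v * r := by
  have h1 : RR m S rg ≤ centralizer {v} := by
    rw [RR, closure_le]
    rintro _ ⟨w, hw, rfl⟩
    rw [SetLike.mem_coe, mem_centralizer_iff]
    intro y hy
    rw [Set.mem_singleton_iff.1 hy]
    exact (hv w hw).symm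
  exact (mem_centralizer_iff.1 (h1 hr) v rfl).symm

/-- `r` (a word in the words `rg`) inverts `x` -/
noncomputable def invb (m : ℕ) (ps base : List ℕ) (rg : List (List ℕ)) (x r : List ℕ) : Bool :=
  eqb ps base (x ++ rword rg r) (rword rg r ++ winv m x)

open Cfsg.Agent.H819.U33 in
theorem not_trip_inv {base : List ℕ}
    (heq : ∀ v w, Valid m v → Valid m w → eqb ps base v w = true → wd m S v = wd m S w) {rg : List (List ℕ)}
    (hrg : ∀ w ∈ rg, Valid m w) {x r : List ℕ} (hx : Valid m x) (hb : invb m ps base rg x r = true) {u f : G}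
    (hu : ∀ w ∈ rg, wd m S w * u = u * wd m S w) (hf : ∀ w ∈ rg, wd m S w * f = f * wd m S w)
    (h : ¬ Trip u f (wd m S x)) : ¬ Trip u f (wd m S x)⁻¹ := by
  intro h2
  apply h
  have hv := rword_valid hrg r
  have h1 := heq _ _ (hx.append hv) (hv.append hx.winv) hb
  rw [wd_append, wd_append, wd_winv m S hx] at h1
  have hru := RR_comm hu (rword_mem rg r)
  have hrf := RR_comm hf (rword_mem rg r)
  set c := wd m S (rword rg r) with hc
  have h3 := h2.conj c⁻¹
  have h4 : c⁻¹⁻¹ * u * c⁻¹ = u := by rw [inv_inv, hru]; group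
  have h5 : c⁻¹⁻¹ * f * c⁻¹ = f := by rw [inv_inv, hrf]; group
  have h6 : c⁻¹⁻¹ * (wd m S x)⁻¹ * c⁻¹ = wd m S x := by
    rw [inv_inv, ← h1]
    group
  rwa [h4, h5, h6] at h3

open Cfsg.Agent.H819.U33 in
/-- **Type I.** -/
theorem typeI [Finite G] (h : Act m n S t ps) {base : List ℕ} {rg : List (List ℕ)} {om : List ℕ} {i0 : ℕ}
    {orb : List (ℕ × List ℕ)} {xs : List (List ℕ)} (c : Closed m n S t ps base rg om i0 orb xs) {X : Subgroup G}
    (hX : HH m S = X) {gw : List (List ℕ)} (hg : genb m ps base rg om gw = true) {u f x27 : G} {x0 : List ℕ}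
    (hx0 : x0 ∈ xs) {e0 : Bool} {l0 : List ℕ}
    (hx : x27 = (wd m S (rword rg l0))⁻¹ * wd m S (sgn m e0 x0) * wd m S (rword rg l0))
    (hu : ∀ w ∈ rg, wd m S w * u = u * wd m S w) (hf : ∀ w ∈ rg, wd m S w * f = f * wd m S w)
    (hxs : ∀ x ∈ xs, (∃ c ∈ RR m S rg, c ≠ 1 ∧ c * wd m S x = wd m S x * c) ∨
      (¬ Trip u f (wd m S x) ∧ ¬ Trip u f (wd m S x)⁻¹)) :
    ∀ g ∈ X, Trip u f (g⁻¹ * x27 * g) →
      ∃ c : G, c ≠ 1 ∧ c * u = u * c ∧ c * f = f * c ∧ c * (g⁻¹ * x27 * g) = (g⁻¹ * x27 * g) * c := by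
  intro g hgX hT
  have hg2 : g ∈ closure ({x | ∃ w ∈ rg, x = wd m S w} ∪ {wd m S om}) :=
    gen_of c.eq c.rgv c.omv hg (by rw [hX]; exact hgX)
  have h1 : x27 ∈ SS m S rg xs := ⟨_, rword_mem rg l0, x0, hx0, e0, hx⟩
  obtain ⟨r, hr, x, hxx, e, h2⟩ := c.main h hg2 _ h1
  rw [h2] at hT ⊢
  have hru := RR_comm hu hr
  have hrf := RR_comm hf hr
  have hT2 : Trip u f (wd m S (sgn m e x)) := by
    have h3 := hT.conj r⁻¹
    have h4 : r⁻¹⁻¹ * u * r⁻¹ = u := by rw [inv_inv, hru]; group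
    have h5 : r⁻¹⁻¹ * f * r⁻¹ = f := by rw [inv_inv, hrf]; group
    have h6 : r⁻¹⁻¹ * (r⁻¹ * wd m S (sgn m e x) * r) * r⁻¹ = wd m S (sgn m e x) := by group
    rwa [h4, h5, h6] at h3
  rw [wd_sgn (c.xsv x hxx)] at hT2 ⊢
  rcases hxs x hxx with ⟨c0, hc0, hc1, hc2⟩ | ⟨h3, h4⟩
  · have hcu := RR_comm hu hc0
    have hcf := RR_comm hf hc0
    have hcx : c0 * (bif e then wd m S x else (wd m S x)⁻¹) = (bif e then wd m S x else (wd m S x)⁻¹) * c0 := by
      cases e
      · exact (show Commute c0 (wd m S x) from hc2).inv_right.eq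
      · exact hc2
    generalize (bif e then wd m S x else (wd m S x)⁻¹) = y at hcx ⊢
    have key : ∀ v : G, r * v = v * r → c0 * v = v * c0 → r⁻¹ * c0 * r * v = v * (r⁻¹ * c0 * r) := by
      intro v h5 h6
      have h7 : Commute r v := h5
      have h8 : Commute c0 v := h6
      exact ((h7.inv_left.mul_left h8).mul_left h7).eq
    refine ⟨r⁻¹ * c0 * r, ?_, key u hru hcu, key f hrf hcf, ?_⟩
    · intro h5
      apply hc1
      calc c0 = r * (r⁻¹ * c0 * r) * r⁻¹ := by group
        _ = 1 := by rw [h5]; group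
    · calc r⁻¹ * c0 * r * (r⁻¹ * y * r) = r⁻¹ * (c0 * y) * r := by group
        _ = r⁻¹ * (y * c0) * r := by rw [hcx]
        _ = r⁻¹ * y * r * (r⁻¹ * c0 * r) := by group
  · cases e
    · exact absurd hT2 h4
    · exact absurd hT2 h3

end group

end Cfsg.Agent.H698.U33
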